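import Mathlib
import Cfsg.Agent.H384.RC.KRule
import Cfsg.Agent.ClassicalGeometry.SympBasic
import Cfsg.Agent.LieClassical.SympCenter
import Cfsg.Agent.LieClassical.SLGen
import Cfsg.Agent.S0269
import Cfsg.Agent.S0270

/-!
# S3510 part B, box BP2: pseudo-symplectic polarities in characteristic 2, even dimension (helper837)
-/

set_option autoImplicit false

namespace Cfsg.Agent.H837.RC.KilledP2

open Matrix Cfsg
open Cfsg.Agent.H106.RC Cfsg.Agent.H999.PslGraph Cfsg.Agent.H384.RC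
open Cfsg.Agent.ClassicalGeometry.AutPSL.Auto
open Cfsg.Agent.ClassicalGeometry.SympBasic
open Cfsg.Agent.LieClassical
open scoped commutatorElement

section basic

variable {F : Type} [Field F] {m : ℕ}

/-- the symplectic group in `GL` -/
def toG (m : ℕ) (F : Type) [Field F] : symplecticGroup (Fin m) F →* GL (Fin m ⊕ Fin m) F :=
  (symplecticGroup (Fin m) F).subtype.toHomUnits

theorem coe_toG (k : symplecticGroup (Fin m) F) :
    (toG m F k : Matrix (Fin m ⊕ Fin m) (Fin m ⊕ Fin m) F) = k.1 := rfl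

theorem nontriv (hm : 1 ≤ m) : Nontrivial (Fin m ⊕ Fin m) :=
  ⟨Sum.inl ⟨0, hm⟩, Sum.inr ⟨0, hm⟩, by simp⟩

theorem map_transv (σ : F ≃+* F) (v : Fin m ⊕ Fin m → F) :
    (sympTransvection m v 1).map σ = sympTransvection m (fun i => σ (v i)) 1 := by
  have hJ : ∀ j, σ ((J (Fin m) F *ᵥ v) j) = (J (Fin m) F *ᵥ (fun i => σ (v i))) j := by
    rintro (j | j)
    · rw [J_mulVec_inl, J_mulVec_inl, map_neg]
    · rw [J_mulVec_inr, J_mulVec_inr]
  rw [sympTransvection_def, sympTransvection_def, one_smul, one_smul,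
    Matrix.map_add σ (fun a b => map_add σ a b), Matrix.map_one σ (map_zero σ) (map_one σ)]
  congr 1
  ext i j
  rw [Matrix.map_apply, vecMulVec_apply, vecMulVec_apply, map_mul, hJ]

theorem transv_nil (v : Fin m ⊕ Fin m → F) : IsNilpotent (sympTransvection m v 1 - 1) := by
  refine ⟨2, ?_⟩
  rw [sympTransvection_def, one_smul, add_sub_cancel_left, pow_two, vecMulVec_mul_vecMulVec]
  have h : (J (Fin m) F *ᵥ v) ⬝ᵥ v = 0 := by
    rw [dotProduct_comm, ← sympForm_def, sympForm_self]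
  rw [h, zero_smul]
  ext i j
  simp [vecMulVec_apply]

theorem cent_rel (hm : 1 ≤ m) (A : GL (Fin m ⊕ Fin m) F) (σ : F ≃+* F) (v : Fin m ⊕ Fin m → F)
    (h : Sem A σ * Cj (toG m F (transv v 1)) = Cj (toG m F (transv v 1)) * Sem A σ)
    (x : Fin m ⊕ Fin m → F) :
    sympForm m F x (fun i => σ (v i)) • ((A : Matrix (Fin m ⊕ Fin m) (Fin m ⊕ Fin m) F) *ᵥ fun i => σ (v i)) =
      sympForm m F ((A : Matrix (Fin m ⊕ Fin m) (Fin m ⊕ Fin m) F) *ᵥ x) v • v := by
  have := nontriv hm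
  obtain ⟨c, hc, h1⟩ := (Sem_comm_iff A σ _).1 h
  have h2 := unip_exact A σ (toG m F (transv v 1)) (transv_nil v) h1
  rw [coe_toG, coe_transv, map_transv] at h2
  have h3 := congrArg (fun M => M *ᵥ x) h2
  simp only [← Matrix.mulVec_mulVec, sympTransvection_mulVec, one_mul, Matrix.mulVec_add,
    Matrix.mulVec_smul] at h3
  exact add_left_cancel h3

/-- automorphisms commuting with the symplectic group -/
theorem cent (hm : 1 ≤ m) (A : GL (Fin m ⊕ Fin m) F) (σ : F ≃+* F)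
    (h : ∀ k : symplecticGroup (Fin m) F, Sem A σ * Cj (toG m F k) = Cj (toG m F k) * Sem A σ) :
    Sem A σ = 1 := by
  have := nontriv hm
  have hx : ∀ v : Fin m ⊕ Fin m → F, v ≠ 0 →
      ∃ a : F, (A : Matrix (Fin m ⊕ Fin m) (Fin m ⊕ Fin m) F) *ᵥ (fun i => σ (v i)) = a • v := by
    intro v hv
    have h1 : (fun i => σ (v i)) ≠ 0 := by
      intro h0
      apply hv
      funext i
      have := congrFun h0 i
      simpa using this
    have h2 : ∃ x, sympForm m F x (fun i => σ (v i)) ≠ 0 := by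
      by_contra hcon
      push Not at hcon
      exact h1 (eq_zero_of_forall_sympForm_left hcon)
    obtain ⟨x, hx⟩ := h2
    have h3 := cent_rel hm A σ v (h _) x
    refine ⟨(sympForm m F x (fun i => σ (v i)))⁻¹ * sympForm m F (A.1 *ᵥ x) v, ?_⟩
    rw [mul_smul, ← h3, smul_smul, inv_mul_cancel₀ hx, one_smul]
  have hs1 : ∀ i : Fin m ⊕ Fin m, (fun j => σ ((Pi.single i (1 : F) : Fin m ⊕ Fin m → F) j)) =
      Pi.single i (1 : F) := by
    intro i
    funext j
    by_cases hij : j = i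
    · subst hij; simp
    · simp [Pi.single_eq_of_ne hij]
  have he : ∀ i : Fin m ⊕ Fin m, ∃ a : F, (A : Matrix (Fin m ⊕ Fin m) (Fin m ⊕ Fin m) F) *ᵥ
      Pi.single i (1 : F) = a • (Pi.single i (1 : F) : Fin m ⊕ Fin m → F) := by
    intro i
    obtain ⟨a, ha⟩ := hx (Pi.single i 1) (by simp)
    rw [hs1] at ha
    exact ⟨a, ha⟩
  choose a ha using he
  have key : ∀ i j, i ≠ j → ∀ b : F, σ b * a j = a i * b := by
    intro i j hij b
    obtain ⟨c, hc⟩ := hx (Pi.single i 1 + b • Pi.single j 1) (by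
      intro h0
      have := congrFun h0 i
      simp [Pi.single_eq_of_ne hij] at this)
    have e1 : (fun k => σ ((Pi.single i (1 : F) + b • Pi.single j 1 : Fin m ⊕ Fin m → F) k)) =
        Pi.single i (1 : F) + σ b • Pi.single j (1 : F) := by
      funext k
      have h1 := congrFun (hs1 i) k
      have h2 := congrFun (hs1 j) k
      simp only [Pi.add_apply, Pi.smul_apply, smul_eq_mul, map_add, map_mul] at h1 h2 ⊢
      rw [h1, h2]
    rw [e1, Matrix.mulVec_add, Matrix.mulVec_smul, ha, ha] at hc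
    have hi := congrFun hc i
    have hj := congrFun hc j
    simp only [Pi.add_apply, Pi.smul_apply, smul_eq_mul, Pi.single_eq_same, Pi.single_eq_of_ne hij,
      Pi.single_eq_of_ne hij.symm, mul_zero, mul_one, add_zero, zero_add] at hi hj
    rw [hj, ← hi]
  have hane : ∀ i, a i ≠ 0 := by
    intro i h0
    have h1 := ha i
    rw [h0, zero_smul] at h1
    have h2 := congrArg (fun w => ((A⁻¹ : GL (Fin m ⊕ Fin m) F) : Matrix (Fin m ⊕ Fin m) (Fin m ⊕ Fin m) F) *ᵥ w) h1
    simp only [Matrix.mulVec_mulVec, Matrix.mulVec_zero] at h2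
    rw [← Units.val_mul, inv_mul_cancel, Units.val_one, Matrix.one_mulVec] at h2
    exact (by simp : (Pi.single i (1 : F) : Fin m ⊕ Fin m → F) ≠ 0) h2
  have haij : ∀ i j, a j = a i := by
    intro i j
    by_cases hij : i = j
    · rw [hij]
    · have := key i j hij 1
      rwa [map_one, one_mul, mul_one] at this
  have hσ : σ = RingEquiv.refl F := by
    apply RingEquiv.ext
    intro b
    obtain ⟨i, j, hij⟩ := exists_pair_ne (Fin m ⊕ Fin m)
    have h1 := key i j hij b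
    rw [haij i j, mul_comm] at h1
    exact mul_left_cancel₀ (hane i) h1
  rw [hσ, Sem_one, Cj_eq_one_iff]
  let i0 : Fin m ⊕ Fin m := Sum.inl ⟨0, hm⟩
  refine ⟨a i0, ?_⟩
  refine Matrix.ext_of_mulVec_single fun i => ?_
  rw [ha, Matrix.smul_mulVec, Matrix.one_mulVec, haij i0 i]

/-- the embedding of the symplectic group -/
noncomputable def fK (m : ℕ) (F : Type) [Field F] :
    symplecticGroup (Fin m) F →* MulAut (Matrix.ProjectiveSpecialLinearGroup (Fin m ⊕ Fin m) F) :=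
  Cj.comp (toG m F)

theorem fK_apply (k : symplecticGroup (Fin m) F) : fK m F k = Cj (toG m F k) := rfl

theorem fK_ker (hm : 1 ≤ m) (k : symplecticGroup (Fin m) F) :
    fK m F k = 1 ↔ k ∈ Subgroup.center (symplecticGroup (Fin m) F) := by
  have := nontriv hm
  rw [fK_apply, Cj_eq_one_iff, SympCenter.mem_center_iff]
  rfl

/-- the matrix `J` -/
def JG (m : ℕ) (F : Type) [Field F] : GL (Fin m ⊕ Fin m) F := toG m F (SymplecticGroup.symJ (Fin m) F)

theorem coe_JG : (JG m F : Matrix (Fin m ⊕ Fin m) (Fin m ⊕ Fin m) F) = J (Fin m) F := rfl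

theorem gamJ_comm (hm : 1 ≤ m) (k : symplecticGroup (Fin m) F) :
    gam (JG m F) * fK m F k = fK m F k * gam (JG m F) := by
  have := nontriv hm
  rw [fK_apply, gam_comm_Cj_iff]
  refine ⟨1, one_ne_zero, ?_⟩
  rw [one_smul, coe_JG, coe_toG]
  exact (SymplecticGroup.mem_iff'.1 k.2).symm

theorem symJ_not_mem (hm : 1 ≤ m) :
    (SymplecticGroup.symJ (Fin m) F : symplecticGroup (Fin m) F) ∉ Subgroup.center (symplecticGroup (Fin m) F) := by
  intro h
  rw [SympCenter.mem_center_iff] at h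
  obtain ⟨a, ha⟩ := h
  have h1 : Matrix.J (Fin m) F = a • 1 := ha
  have h2 := congrFun (congrFun h1 (Sum.inr ⟨0, hm⟩)) (Sum.inl ⟨0, hm⟩)
  simp [Matrix.J] at h2

theorem psp_nonab [Fintype F] (hm : 2 ≤ m) (h : m = 2 → 3 ≤ Fintype.card F) : ¬ IsMulCommutative (PSp m F) := by
  intro hc
  have hperf : commutator (symplecticGroup (Fin m) F) = ⊤ := by
    refine Cfsg.Agent.S0269.result m ?_
    by_cases h2 : m = 2
    · exact Or.inr (Or.inl ⟨h2, h h2⟩)
    · left; omega
  have h1 : commutator (symplecticGroup (Fin m) F) ≤ Subgroup.center (symplecticGroup (Fin m) F) := by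
    rw [commutator_def, Subgroup.commutator_le]
    intro a _ b _
    rw [← QuotientGroup.eq_one_iff, ← QuotientGroup.mk'_apply, map_commutatorElement, commutatorElement_eq_one_iff_mul_comm]
    exact hc.is_comm.comm _ _
  rw [hperf] at h1
  exact symJ_not_mem (by omega) (h1 (Subgroup.mem_top _))

end basic

section two

variable {F : Type} [Field F] [Fintype F] [CharP F 2] {m : ℕ}

omit [Fintype F] in
theorem sq_inj {a b : F} (h : a * a = b * b) : a = b := by
  rcases mul_self_eq_mul_self_iff.1 h with h1 | h1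
  · exact h1
  · rw [h1, CharTwo.neg_eq]

omit [Fintype F] in
theorem det_one (k : symplecticGroup (Fin m) F) : (k.1).det = 1 := by
  have h1 : k.1 * J (Fin m) F * k.1ᵀ = J (Fin m) F := SymplecticGroup.mem_iff.1 k.2
  have h2 := congrArg Matrix.det h1
  rw [det_mul, det_mul, det_transpose] at h2
  have h3 := Matrix.isUnit_det_J (Fin m) F
  have h4 : k.1.det * k.1.det = 1 * 1 := by
    have h5 : (k.1.det * k.1.det) * (J (Fin m) F).det = 1 * (J (Fin m) F).det := by
      rw [one_mul]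
      calc _ = k.1.det * (J (Fin m) F).det * k.1.det := by ring
        _ = _ := h2
    rw [mul_one]
    exact h3.mul_right_cancel h5
  exact sq_inj h4

omit [Fintype F] in
theorem fK_inn (k : symplecticGroup (Fin m) F) :
    fK m F k ∈ inn (Matrix.ProjectiveSpecialLinearGroup (Fin m ⊕ Fin m) F) :=
  Cj_mem_inn _ (det_one k)

omit [Fintype F] in
theorem J_sq (l : Fin m ⊕ Fin m → F) : J (Fin m) F *ᵥ (J (Fin m) F *ᵥ l) = l := by
  rw [Matrix.mulVec_mulVec, Matrix.J_squared, Matrix.neg_mulVec, Matrix.one_mulVec]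
  funext i
  rw [Pi.neg_apply, CharTwo.neg_eq]

/-- the element of the symplectic group with matrix `J + l lᵀ` -/
noncomputable def kB (l : Fin m ⊕ Fin m → F) : symplecticGroup (Fin m) F :=
  SymplecticGroup.symJ (Fin m) F * transv (J (Fin m) F *ᵥ l) 1

omit [Fintype F] in
theorem coe_kB (l : Fin m ⊕ Fin m → F) : (kB l).1 = J (Fin m) F + vecMulVec l l := by
  rw [kB, Submonoid.coe_mul]
  show J (Fin m) F * sympTransvection m _ 1 = _
  rw [sympTransvection_def, one_smul, Matrix.mul_add, Matrix.mul_one, Matrix.mul_vecMulVec, J_sq]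

omit [Fintype F] [CharP F 2] in
theorem norm_aux {n : Type} [Fintype n] [DecidableEq n] {P Q K M : Matrix n n F} {c : F} (hc : c ≠ 0)
    (e1 : P * Q = 1) (h : M = c • (Pᵀ * M * P)) (hk : Kᵀ * M * K = M) :
    (P * K * Q)ᵀ * M * (P * K * Q) = M := by
  have e2 : Qᵀ * Pᵀ = 1 := by rw [← transpose_mul, e1, transpose_one]
  have h3 : Pᵀ * M * P = c⁻¹ • M := by
    conv_rhs => rw [h]
    rw [smul_smul, inv_mul_cancel₀ hc, one_smul]
  have h4 : Qᵀ * M * Q = c • M := by
    conv_lhs => rw [h]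
    rw [Matrix.mul_smul, Matrix.smul_mul]
    congr 1
    calc Qᵀ * (Pᵀ * M * P) * Q = (Qᵀ * Pᵀ) * M * (P * Q) := by simp only [Matrix.mul_assoc]
      _ = _ := by rw [e1, e2, Matrix.one_mul, Matrix.mul_one]
  calc (P * K * Q)ᵀ * M * (P * K * Q) = Qᵀ * Kᵀ * (Pᵀ * M * P) * K * Q := by
        rw [transpose_mul, transpose_mul]
        simp only [Matrix.mul_assoc]
    _ = c⁻¹ • (Qᵀ * (Kᵀ * M * K) * Q) := by
        rw [h3]
        simp only [Matrix.mul_smul, Matrix.smul_mul, Matrix.mul_assoc]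
    _ = M := by rw [hk, h4, smul_smul, inv_mul_cancel₀ hc, one_smul]

omit [Fintype F] [CharP F 2] in
theorem map_J (σ : F ≃+* F) : (J (Fin m) F).map σ = J (Fin m) F := by
  ext i j
  rcases i with i | i <;> rcases j with j | j <;>
    simp [Matrix.J, Matrix.one_apply, apply_ite σ]

omit [Fintype F] [CharP F 2] in
/-- a similitude of `J` normalises the symplectic group -/
theorem norm_of {A : GL (Fin m ⊕ Fin m) F} {σ : F ≃+* F} {c : F} (hc : c ≠ 0)
    (h : J (Fin m) F = c • ((A : Matrix (Fin m ⊕ Fin m) (Fin m ⊕ Fin m) F)ᵀ * J (Fin m) F * A))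
    (k : symplecticGroup (Fin m) F) : ∃ k' : symplecticGroup (Fin m) F,
      Sem A σ * fK m F k * (Sem A σ)⁻¹ = fK m F k' := by
  have e1 : (A : Matrix (Fin m ⊕ Fin m) (Fin m ⊕ Fin m) F) * ((A⁻¹ : GL (Fin m ⊕ Fin m) F) : Matrix _ _ F) = 1 := by
    rw [← Units.val_mul, mul_inv_cancel, Units.val_one]
  have hk : (k.1.map σ)ᵀ * J (Fin m) F * k.1.map σ = J (Fin m) F := by
    have h2 : (k.1ᵀ * J (Fin m) F * k.1).map σ = (J (Fin m) F).map σ :=
      congrArg (fun M => M.map σ) (SymplecticGroup.mem_iff'.1 k.2)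
    have h3 : (k.1ᵀ * J (Fin m) F * k.1).map σ = (k.1ᵀ).map σ * (J (Fin m) F).map σ * k.1.map σ := by
      have e3 : (k.1ᵀ * J (Fin m) F * k.1).map σ = (k.1ᵀ * J (Fin m) F).map σ * k.1.map σ :=
        Matrix.map_mul (f := (σ : F →+* F))
      have e4 : (k.1ᵀ * J (Fin m) F).map σ = (k.1ᵀ).map σ * (J (Fin m) F).map σ :=
        Matrix.map_mul (f := (σ : F →+* F))
      rw [e3, e4]
    rw [h3, map_J] at h2
    exact h2
  have hg : (A : Matrix (Fin m ⊕ Fin m) (Fin m ⊕ Fin m) F) * k.1.map σ *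
      ((A⁻¹ : GL (Fin m ⊕ Fin m) F) : Matrix _ _ F) ∈ symplecticGroup (Fin m) F := by
    rw [SymplecticGroup.mem_iff']
    exact norm_aux hc e1 h hk
  refine ⟨⟨_, hg⟩, ?_⟩
  rw [fK_apply, Sem_conj_Cj, fK_apply]
  congr 1
  apply Units.ext
  rfl

/-- the quadratic part of the form -/
theorem simil {A : GL (Fin m ⊕ Fin m) F} {σ : F ≃+* F} {c : F} (l : Fin m ⊕ Fin m → F)
    (h : (J (Fin m) F + vecMulVec l l).map σ =
      c • ((A : Matrix (Fin m ⊕ Fin m) (Fin m ⊕ Fin m) F)ᵀ * (J (Fin m) F + vecMulVec l l) * A)) :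
    J (Fin m) F = c • ((A : Matrix (Fin m ⊕ Fin m) (Fin m ⊕ Fin m) F)ᵀ * J (Fin m) F * A) := by
  obtain ⟨d, hd⟩ := FiniteField.isSquare_of_char_two (F := F) (CharP.ringChar_of_prime_eq_zero Nat.prime_two (by
    have := CharP.cast_eq_zero F 2
    exact this)) c
  have hJ : (J (Fin m) F).map σ = J (Fin m) F := map_J σ
  have hv : (vecMulVec l l).map σ = vecMulVec (fun i => σ (l i)) (fun i => σ (l i)) := by
    ext i j
    simp [vecMulVec_apply]
  have hr : (A : Matrix (Fin m ⊕ Fin m) (Fin m ⊕ Fin m) F)ᵀ * (J (Fin m) F + vecMulVec l l) * A =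
      (A : Matrix (Fin m ⊕ Fin m) (Fin m ⊕ Fin m) F)ᵀ * J (Fin m) F * A +
        vecMulVec ((A : Matrix (Fin m ⊕ Fin m) (Fin m ⊕ Fin m) F)ᵀ *ᵥ l)
          ((A : Matrix (Fin m ⊕ Fin m) (Fin m ⊕ Fin m) F)ᵀ *ᵥ l) := by
    rw [Matrix.mul_add, Matrix.add_mul, Matrix.mul_vecMulVec, Matrix.vecMulVec_mul, Matrix.mulVec_transpose]
  rw [Matrix.map_add σ (fun a b => map_add σ a b), hJ, hv, hr] at h
  have hJ0 : ∀ i, J (Fin m) F i i = 0 := by
    rintro (i | i) <;> simp [Matrix.J]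
  have hA0 : ∀ i, ((A : Matrix (Fin m ⊕ Fin m) (Fin m ⊕ Fin m) F)ᵀ * J (Fin m) F * A) i i = 0 := by
    intro i
    have h1 : ((A : Matrix (Fin m ⊕ Fin m) (Fin m ⊕ Fin m) F)ᵀ * J (Fin m) F * A) i i =
        sympForm m F (A.1 *ᵥ Pi.single i 1) (A.1 *ᵥ Pi.single i 1) := by
      rw [sympForm_def, Matrix.mul_assoc, Matrix.mulVec_single_one, Matrix.mul_apply]
      rfl
    rw [h1, sympForm_self]
  have hl : ∀ i, σ (l i) = d * ((A : Matrix (Fin m ⊕ Fin m) (Fin m ⊕ Fin m) F)ᵀ *ᵥ l) i := by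
    intro i
    have h1 := congrFun (congrFun h i) i
    simp only [Matrix.add_apply, Matrix.smul_apply, vecMulVec_apply, hJ0, hA0, zero_add, smul_eq_mul] at h1
    apply sq_inj
    rw [h1, hd]
    ring
  have h2 : vecMulVec (fun i => σ (l i)) (fun i => σ (l i)) =
      c • vecMulVec ((A : Matrix (Fin m ⊕ Fin m) (Fin m ⊕ Fin m) F)ᵀ *ᵥ l)
          ((A : Matrix (Fin m ⊕ Fin m) (Fin m ⊕ Fin m) F)ᵀ *ᵥ l) := by
    ext i j
    simp only [vecMulVec_apply, Matrix.smul_apply, smul_eq_mul, hl, hd]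
    ring
  rw [smul_add, h2] at h
  exact add_right_cancel h

/-- **box BP2** -/
theorem killed_P2 {F : Type} [Field F] [Fintype F] [CharP F 2] {m : ℕ} (hm : 2 ≤ m)
    (hne : ¬ (m = 2 ∧ Fintype.card F = 2))
    (hRC : Nat.card (PSp m F) < Nat.card (Matrix.ProjectiveSpecialLinearGroup (Fin m ⊕ Fin m) F) →
      RC (PSp m F))
    (l : Fin m ⊕ Fin m → F) (hl : l ≠ 0)
    (B : GL (Fin m ⊕ Fin m) F) (hB : (B : Matrix (Fin m ⊕ Fin m) (Fin m ⊕ Fin m) F) =
      J (Fin m) F + vecMulVec l l) :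
    Killed (gam B) := by
  have hm1 : 1 ≤ m := by omega
  have hnt := nontriv hm1
  have hcard : 3 ≤ Fintype.card (Fin m ⊕ Fin m) := by
    rw [Fintype.card_sum, Fintype.card_fin]; omega
  have hF2 : 2 ≤ Fintype.card F := Fintype.one_lt_card
  have h3 : m = 2 → 3 ≤ Fintype.card F := by
    intro h
    rcases Nat.lt_or_ge (Fintype.card F) 3 with h1 | h1
    · exact absurd ⟨h, by omega⟩ hne
    · exact h1
  have hBk : B = toG m F (kB l) := by
    apply Units.ext
    rw [coe_toG, coe_kB, hB]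
  have hBt : (B : Matrix (Fin m ⊕ Fin m) (Fin m ⊕ Fin m) F)ᵀ = B := by
    rw [hB, transpose_add, Matrix.J_transpose, transpose_vecMulVec]
    congr 1
    ext i j
    rw [Matrix.neg_apply, CharTwo.neg_eq]
  have hS : IsSimpleGroup (Matrix.ProjectiveSpecialLinearGroup (Fin m ⊕ Fin m) F) :=
    SLGen.psl_isSimpleGroup hcard
  have hK : IsSimpleGroup (PSp m F) := Cfsg.Agent.S0270.result m hm h3
  have hKn : ¬ IsMulCommutative (PSp m F) := psp_nonab hm h3
  have hSn : ¬ IsMulCommutative (Matrix.ProjectiveSpecialLinearGroup (Fin m ⊕ Fin m) F) := by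
    intro hc
    apply symJ_not_mem (F := F) hm1
    rw [← fK_ker hm1]
    obtain ⟨s, hs⟩ := fK_inn (SymplecticGroup.symJ (Fin m) F : symplecticGroup (Fin m) F)
    rw [← hs]
    apply MulEquiv.ext
    intro y
    rw [MulAut.conj_apply, MulAut.one_apply, hc.is_comm.comm s y, mul_inv_cancel_right]
  have hfin : Finite (Matrix.ProjectiveSpecialLinearGroup (Fin m ⊕ Fin m) F) := inferInstance
  have hlt : Nat.card (PSp m F) < Nat.card (Matrix.ProjectiveSpecialLinearGroup (Fin m ⊕ Fin m) F) :=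
    card_lt_of_cent hS hSn (fK m F) (fK_ker hm1) fK_inn (gam (JG m F)) (gam_ne_one hcard _)
      (gamJ_comm hm1)
  have hgam : gam B = Cj (B⁻¹ * JG m F) * gam (JG m F) := by
    rw [gam, gam, ← mul_assoc, ← map_mul]
    congr 2
    group
  have hU : B⁻¹ * JG m F = toG m F ((kB l)⁻¹ * SymplecticGroup.symJ (Fin m) F) := by
    rw [hBk, map_mul, map_inv]
    rfl
  rw [killed_iff]
  intro κ _ x r hF H hcov
  have hsem : ∀ i, ∃ (A : GL (Fin m ⊕ Fin m) F) (σ : F ≃+* F), x i = Sem A σ := fun i =>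
    exists_sem_of_odd (by omega) (x i) ((hF.pr i).odd_of_ne_two (hF.ne2 i)) (hF.pow i)
  refine fam_K_none hS hF (gam_sq B (Or.inl hBt)) hcov (fK m F) (fK_ker hm1) hK hKn (hRC hlt) fK_inn
    ?_ ?_ ?_ ?_
  · intro k
    refine ⟨((kB l)⁻¹ * SymplecticGroup.symJ (Fin m) F) * k * ((kB l)⁻¹ * SymplecticGroup.symJ (Fin m) F)⁻¹, ?_⟩
    rw [hgam, hU, ← fK_apply]
    generalize (kB l)⁻¹ * SymplecticGroup.symJ (Fin m) F = u
    have h1 := gamJ_comm hm1 k
    calc fK m F u * gam (JG m F) * fK m F k * (fK m F u * gam (JG m F))⁻¹ =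
        fK m F u * (gam (JG m F) * fK m F k) * (gam (JG m F))⁻¹ * (fK m F u)⁻¹ := by group
      _ = fK m F (u * k * u⁻¹) := by rw [h1, map_mul, map_mul, map_inv]; group
  · intro i k
    obtain ⟨A, σ, hA⟩ := hsem i
    have h1 := hF.commt i
    rw [hA, gam_comm_iff] at h1
    obtain ⟨c, hc, h2⟩ := h1
    rw [hB] at h2
    rw [hA]
    exact norm_of hc (simil l h2) k
  · intro i h
    obtain ⟨A, σ, hA⟩ := hsem i
    apply hF.ne1 i
    rw [hA] at h ⊢
    exact cent hm1 A σ h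
  · intro h
    have h1 : ∀ k : symplecticGroup (Fin m) F, Sem (B⁻¹ * JG m F) (RingEquiv.refl F) * Cj (toG m F k) =
        Cj (toG m F k) * Sem (B⁻¹ * JG m F) (RingEquiv.refl F) := by
      intro k
      rw [Sem_one]
      have h2 := h k
      rw [hgam, mul_assoc, gamJ_comm hm1, ← mul_assoc, ← mul_assoc] at h2
      exact mul_right_cancel h2
    have h2 := cent hm1 _ _ h1
    rw [Sem_one] at h2
    rw [h2, one_mul, gam_eq_iff] at hgam
    obtain ⟨c, hc, h4⟩ := hgam
    apply hl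
    funext i
    have h5 := congrFun (congrFun h4 i) i
    rw [coe_JG, hB] at h5
    have hJ0 : J (Fin m) F i i = 0 := by
      rcases i with i | i <;> simp [Matrix.J]
    rw [Matrix.smul_apply, Matrix.add_apply, hJ0, vecMulVec_apply, zero_add, smul_eq_mul] at h5
    have h6 := (mul_eq_zero.1 h5.symm).resolve_left hc
    exact mul_self_eq_zero.1 h6

end two

end Cfsg.Agent.H837.RC.KilledP2
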